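import Cfsg.Agent.CGT.DceMul

set_option autoImplicit false
set_option linter.style.haveILetI false

/-! Consequences of relators, subgroups of certified groups, sections over subgroups of index two. -/

namespace Cfsg.Agent.CGT

open Equiv
open scoped commutatorElement

section
variable {G : Type*} [Group G]

/-- A product of conjugates of relators and their inverses. -/
noncomputable def cjW (D : List (List ℕ)) (c : List (List ℕ × ℕ)) : List ℕ :=
  (fun ds => List.rec [] (fun p _ ih => app p.1 (app (nth [] ds p.2) (app (invW p.1) ih))) c) (dbl D)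

theorem ev_cjW {γ : ℕ → G} {D : List (List ℕ)} (h : Holds (ext γ) D) (c : List (List ℕ × ℕ)) :
    ev (ext γ) (cjW D c) = 1 := by
  induction c with
  | nil => rfl
  | cons p c ih =>
    show ev _ (app p.1 (app (nth [] (dbl D) p.2) (app (invW p.1) (cjW D c)))) = 1
    have h1 : ev (ext γ) (nth [] (dbl D) p.2) = 1 :=
      (congrFun (der_dbl γ D) p.2).trans (Subgroup.mem_bot.1 (ext_wg_mem (fun u hu => h u hu) _))
    rw [ev_app, ev_app, ev_app, ih, h1, ev_invW]; simp

/-- Successive consequences. -/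
noncomputable def consB (D : List (List ℕ)) (st : List (List ℕ × List (List ℕ × ℕ)))
    (k : List (List ℕ) → Bool) : Bool :=
  List.rec (motive := fun _ => List (List ℕ) → Bool) k
    (fun s _ ih D => beqL (red [] (app s.1 (cjW D s.2))) [] && ih (D ++ [s.1])) st D

theorem Holds.consK {γ : ℕ → G} {D : List (List ℕ)} (h : Holds (ext γ) D)
    {st : List (List ℕ × List (List ℕ × ℕ))} {k : List (List ℕ) → Bool} (hs : consB D st k = true) :
    ∃ D', Holds (ext γ) D' ∧ k D' = true := by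
  induction st generalizing D with
  | nil => exact ⟨D, h, hs⟩
  | cons s st ih =>
    have h' : (beqL (red [] (app s.1 (cjW D s.2))) [] && consB (D ++ [s.1]) st k) = true := hs
    rw [Bool.and_eq_true] at h'
    refine ih (h.append fun r hr => ?_) h'.2
    have h1 := ev_red (γ := γ) (I := []) (by simp) (app s.1 (cjW D s.2))
    rw [beqL_sound h'.1, ev_app, ev_cjW h, mul_one] at h1
    rw [List.mem_singleton.1 hr, ← h1]; rfl

theorem Holds.cons {γ : ℕ → G} {D : List (List ℕ)} (h : Holds (ext γ) D)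
    (st : List (List ℕ × List (List ℕ × ℕ))) {W R : List (List ℕ)}
    (hs : consB D st (fun D' => CGT.relsFrom [] D' W R) = true) : Holds (ext (wg γ W)) R := by
  obtain ⟨D', h1, h2⟩ := h.consK hs
  exact h1.relsFrom h2

theorem Holds.expand {γ : ℕ → G} {W R : List (List ℕ)} (h : Holds (ext (wg γ W)) R) :
    Holds (ext γ) (R.map (CGT.expand (dbl W))) := fun r hr => by
  obtain ⟨u, hu, rfl⟩ := List.mem_map.1 hr
  rw [ev_expand_dbl]; exact h u hu

theorem pg_transfer {m : ℕ} {R S : List (List ℕ)} (hS : Holds (ext (pgγ m R)) S) {γ : ℕ → G}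
    {W : List (List ℕ)} (hl : W.length = m) (h : Holds (ext (wg γ W)) R) : Holds (ext (wg γ W)) S := by
  obtain ⟨f, hf⟩ := pg_lift (m := m) (fun j hj => wg_of_le γ (hl ▸ hj)) h
  intro r hr
  rw [← funext hf, ← map_ev_ext, hS r hr, map_one]

theorem pg_rho {m : ℕ} {R : List (List ℕ)} {γ : ℕ → G} {W : List (List ℕ)} (hl : W.length = m)
    (h : Holds (ext (wg γ W)) R) (b : ℕ) :
    ∃ ρ : PG m R →* G, zt ρ (pgγ m R) (γ b) = wg γ ([Nat.mul 2 b] :: W) := by
  obtain ⟨f, hf⟩ := pg_lift (m := m) (fun j hj => wg_of_le γ (hl ▸ hj)) h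
  refine ⟨f, funext fun j => ?_⟩
  cases j
  · exact ((ev_singleton _ _).trans (ext_two_mul γ b)).symm
  · exact hf _

theorem eq_wg_wg {γ : ℕ → G} {n : ℕ} (h1 : ∀ j, n ≤ j → γ j = 1) {V W : List (List ℕ)}
    (h : (Nat.beq W.length n && allLt n fun j =>
      beqL (expand (dbl V) (nth [] W j)) [Nat.mul 2 j]) = true) : γ = wg (wg γ V) W := by
  simp only [Bool.and_eq_true, Nat.beq_eq, allLt_iff] at h
  funext j
  by_cases hj : j < n
  · rw [wg, ← ev_expand_dbl, beqL_sound (h.2 j hj), ev_singleton]; exact (ext_two_mul γ j).symm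
  · rw [h1 j (by omega), wg_of_le _ (by omega)]

theorem wg_mem_gw (γ : ℕ → G) (W : List (List ℕ)) (j : ℕ) : wg γ W j ∈ gw γ W := by
  rw [← ext_two_mul (wg γ W) j]; exact ext_wg_mem (fun u hu => ev_mem_gw γ hu) _

/-- The generators of a subgroup given by words. -/
noncomputable def subγ (γ : ℕ → G) (W : List (List ℕ)) (j : ℕ) : gw γ W := ⟨_, wg_mem_gw γ W j⟩

theorem val_ev_subγ (γ : ℕ → G) (W : List (List ℕ)) (u : List ℕ) :
    ((ev (ext (subγ γ W)) u : gw γ W) : G) = ev (ext (wg γ W)) u :=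
  map_ev_ext (gw γ W).subtype _ u

theorem Cert.sub {φ : G →* Perm ℕ} {γ : ℕ → G} {k : ℕ} {ns ns' : List Net} {ts ts' : List Tab}
    (M : Model φ γ k ns ts) [Finite G] (hv : validAll (2 ^ k) ns' = true) {W : List (List ℕ)}
    (h : extOK k ns ns' W = true) (ht : TabsOK k (lp ns') ts') {L : List ℕ}
    (hL : (allLt W.length fun j => memL (Nat.mul 2 j) L) = true) {ls : List Level}
    (hs : ∀ {φ' : gw γ W →* Perm ℕ}, Model φ' (subγ γ W) k ns' ts' →
      ChainSound φ' (gp (subγ γ W) L) k [] ls) (hb : Nat.card (gw γ W) ≤ chainCard ls) :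
    Cert (φ.comp (gw γ W).subtype) (subγ γ W) k ns' ts' L ls := by
  have M' : Model (φ.comp (gw γ W).subtype) (subγ γ W) k ns' ts' :=
    ⟨hv, (M.extend hv h ht).gen, ht⟩
  refine Cert.of_bound M' ?_ (hs M') ⟨inferInstance, le_rfl⟩ (Nat.ble_eq_true_of_le hb)
  apply Subgroup.map_injective (gw γ W).subtype_injective
  rw [← MonoidHom.range_eq_map, Subgroup.range_subtype]
  refine le_antisymm (Subgroup.map_subtype_le _) (gw_le fun u hu => ?_)
  obtain ⟨j, hj, rfl⟩ := List.getElem_of_mem hu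
  refine ⟨_, ext_mem_gp _ (memL_sound (allLt_iff.1 hL j hj)), ?_⟩
  rw [show Nat.mul 2 j = 2 * j from rfl, ext_two_mul]
  show wg γ W j = _
  rw [wg, nth_eq, List.getD_eq_getElem _ _ hj]

theorem two_mul_card_le [Finite G] {U : Subgroup G} (h : U ≠ ⊤) : 2 * Nat.card U ≤ Nat.card G := by
  have h2 := U.card_mul_index
  have h3 := mt Subgroup.index_eq_one.1 h
  have h4 := U.index_ne_zero_of_finite
  have h5 : Nat.card U * 2 ≤ Nat.card U * U.index := Nat.mul_le_mul_left _ (by omega)
  omega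

end

theorem lift_eq {U Γ G : Type*} [Group U] [Group Γ] [Group G] (hp : commutator U = ⊤) {π : Γ →* G}
    (hc : π.ker ≤ Subgroup.center Γ) {f g : U →* Γ} (h : ∀ u, π (f u) = π (g u)) : f = g := by
  have : commutator U ≤ f.eqLocus g := by
    rw [_root_.commutator_def, Subgroup.commutator_le]
    intro a _ b _
    show f ⁅a, b⁆ = g ⁅a, b⁆
    rw [map_commutatorElement, map_commutatorElement]
    exact Cover.comm_eq_of_map_eq hc (h a) (h b)
  exact MonoidHom.ext fun u => this (hp ▸ Subgroup.mem_top u)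

theorem lift_conj {K Γ G : Type*} [Group K] [Group Γ] [Group G] {U : Subgroup K} [hU : U.Normal]
    (hp : commutator U = ⊤) {π : Γ →* G} (hc : π.ker ≤ Subgroup.center Γ) {ρ : K →* G}
    {σ : U →* Γ} (h : π.comp σ = ρ.comp U.subtype) {z : K} {z' : Γ} (hz : π z' = ρ z) (u : U) :
    z' * σ u * z'⁻¹ = σ ⟨z * u * z⁻¹, hU.conj_mem _ u.2 z⟩ := by
  have h1 : ∀ u, π (σ u) = ρ u := fun u => DFunLike.congr_fun h u
  exact DFunLike.congr_fun (lift_eq hp hc (f := (MulAut.conj z').toMonoidHom.comp σ)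
    (g := σ.comp (MulAut.conjNormal z).toMonoidHom) fun u => by simp [h1, hz]) u

/-- Extension of a homomorphism from a subgroup of index two. -/
theorem extend_two {K Γ : Type*} [Group K] [Group Γ] {U : Subgroup K} [hU : U.Normal]
    (hi : U.index = 2) {σ : U →* Γ} {z : K} (hz : z ∉ U) (h2 : z * z = 1) {z' : Γ} (h2' : z' * z' = 1)
    (hc : ∀ u : U, z' * σ u * z'⁻¹ = σ ⟨z * u * z⁻¹, hU.conj_mem _ u.2 z⟩) :
    ∃ f : K →* Γ, (∀ u : U, f u = σ u) ∧ f z = z' := by
  classical
  have hm : ∀ {a}, a ∉ U → a * z⁻¹ ∈ U := fun ha => by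
    rw [Subgroup.mul_mem_iff_of_index_two hi, inv_mem_iff]; tauto
  have hc' : ∀ u : U, z' * σ u = σ ⟨z * u * z⁻¹, hU.conj_mem _ u.2 z⟩ * z' := fun u => by
    rw [← hc]; group
  have hz1 : z⁻¹ = z := inv_eq_of_mul_eq_one_right h2
  refine ⟨MonoidHom.mk' (fun a => if h : a ∈ U then σ ⟨a, h⟩ else σ ⟨_, hm h⟩ * z') fun a b => ?_,
    fun u => dif_pos u.2, ?_⟩
  · have e := Subgroup.mul_mem_iff_of_index_two hi (a := a) (b := b)
    by_cases ha : a ∈ U <;> by_cases hb : b ∈ U
    · rw [dif_pos ha, dif_pos hb, dif_pos (U.mul_mem ha hb), ← map_mul]; rfl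
    · rw [dif_pos ha, dif_neg hb, dif_neg (by tauto), ← mul_assoc, ← map_mul]
      congr 2; exact Subtype.ext (mul_assoc _ _ _)
    · rw [dif_neg ha, dif_pos hb, dif_neg (by tauto), mul_assoc _ z', hc', ← mul_assoc, ← map_mul]
      congr 2; apply Subtype.ext; simp [mul_assoc]
    · rw [dif_neg ha, dif_neg hb, dif_pos (by tauto), mul_assoc, ← mul_assoc z', hc', mul_assoc, h2',
        mul_one, ← map_mul]
      congr 1; apply Subtype.ext; simp [mul_assoc, hz1, h2, ← mul_assoc z z]
  · show dite _ _ _ = _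
    rw [dif_neg hz]
    have : (⟨_, hm hz⟩ : U) = 1 := Subtype.ext (mul_inv_cancel z)
    rw [this, map_one, one_mul]

section
open Cfsg.Spor
variable {α : Type} [DecidableEq α] {K : Type*} [Group K]

theorem closed_of_lift {gens : List α} (hg : ∀ x, x ∈ gens) (hn : gens.Nodup)
    {edges : List (α × ℕ × α)} {extra : List (FreeGroup α)} {γ : ℕ → K}
    {ρ : K →* CoxPresented α edges extra} {φ : K →* Perm ℕ} {k : ℕ} {ns : List Net} {ts : List Tab}
    (M : Model φ γ k ns ts) {B : List ℕ} (hB : IsBase φ ⊤ B) (hp : ptsOK k B = true) {L : List ℕ}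
    (hL : gp (pγ gens edges extra) L = ⊤) {z : CoxPresented α edges extra} {Wd : List (List ℕ)}
    (hW : pγ gens edges extra = wg (zt ρ γ z) Wd) (hl : Wd.length = gens.length) {ZR : List (List ℕ)}
    (hZ : (allL (defR gens edges extra) fun r =>
      (fun w => memLL w ZR || isK k ts B w) (expand (dbl Wd) r)) = true)
    (hs : ∀ (Γ : Type) [Group Γ] [Finite Γ] (π : Γ →* CoxPresented α edges extra), IsStemExtension π →
      ∃ (σ : K →* Γ) (z' : Γ), π.comp σ = ρ ∧ π z' = z ∧ Holds (ext (zt σ γ z')) ZR) :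
    Cover.Closed (CoxPresented α edges extra) := by
  intro Γ _ _ π hπ
  obtain ⟨σ, z', h1, h2, hH⟩ := hs Γ π hπ
  obtain ⟨f, hf⟩ := pres_lift hg hn (edges := edges) (extra := extra) (p := wg (zt σ γ z') Wd)
    (fun j hj => wg_of_le _ (by omega)) fun r hr => by
      have := allL_iff.1 hZ r hr
      rw [Bool.or_eq_true, isK, Bool.and_eq_true] at this
      rw [← ev_expand_dbl]
      rcases this with h2 | h2
      · exact hH _ (memLL_sound h2)
      · rw [← beqL_sound h2.1, ev_sh, hB _ trivial (fixesB_sound M hp h2.2), map_one]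
  refine Cover.ker_eq_bot_of_split hπ f (DFunLike.congr_fun (hom_ext_gp hL (f := π.comp f)
    (g := MonoidHom.id _) fun j => ?_))
  show π (f _) = _
  rw [hf, wg, map_ev_zt, h1, h2, MonoidHom.id_apply, congrFun hW j]; rfl

end

end Cfsg.Agent.CGT
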