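import Cfsg.Agent.CGT.Cons

set_option autoImplicit false

/-! The word problem and an enumeration for a small subgroup. -/

namespace Cfsg.Agent.CGT

open Equiv

variable {G : Type*} [Group G]

/-- Some entry passes the test. -/
noncomputable def anyL {α : Type} (l : List α) (p : α → Bool) : Bool :=
  List.rec false (fun a _ ih => Bool.rec ih true (p a)) l

theorem anyL_iff {α : Type} {l : List α} {p : α → Bool} :
    anyL l p = true ↔ ∃ a ∈ l, p a = true := by
  induction l with
  | nil => simp [anyL]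
  | cons a l ih =>
    have : anyL (a :: l) p = Bool.rec (anyL l p) true (p a) := rfl
    rw [this]
    cases h : p a <;> simp [h, ih]

/-- `q` decides equality of words, and `WL` lists the elements of `K`. -/
structure Orc (γ : ℕ → G) (K : Subgroup G) (q : List ℕ → List ℕ → Bool) (WL : List (List ℕ)) :
    Prop where
  iff : ∀ u v, q u v = true ↔ ev (ext γ) u = ev (ext γ) v
  all : ∀ y ∈ K, ∃ w ∈ WL, ev (ext γ) w = y
  mem : ∀ w, ev (ext γ) w ∈ K

/-- The images of the base points. -/
noncomputable def keyW (k : ℕ) (ts : List Tab) (B w : List ℕ) : ℕ :=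
  List.rec 0 (fun b _ ih => Nat.add (ap k (msk k) ts w b) (Nat.shiftLeft ih k)) B

/-- The keys increase. -/
noncomputable def incB (f : List ℕ → ℕ) (l : List (List ℕ)) (p : ℕ) : Bool :=
  List.rec (motive := fun _ => ℕ → Bool) (fun _ => true)
    (fun w _ ih p => (fun c => Nat.ble p c && ih (Nat.succ c)) (f w)) l p

theorem incB_sound {f : List ℕ → ℕ} {l : List (List ℕ)} {p : ℕ} (h : incB f l p = true) :
    (l.map f).Pairwise (· < ·) ∧ ∀ w ∈ l, p ≤ f w := by
  induction l generalizing p with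
  | nil => simp
  | cons w l ih =>
    have h' : (Nat.ble p (f w) && incB f l (f w + 1)) = true := h
    rw [Bool.and_eq_true, Nat.ble_eq] at h'
    obtain ⟨h1, h2⟩ := ih h'.2
    refine ⟨List.pairwise_cons.2 ⟨fun c hc => ?_, h1⟩, fun u hu => ?_⟩
    · obtain ⟨u, hu, rfl⟩ := List.mem_map.1 hc
      exact h2 u hu
    · rcases List.mem_cons.1 hu with rfl | hu
      · exact h'.1
      · have := h2 u hu; omega

theorem Cert.orc {φ : G →* Perm ℕ} {γ : ℕ → G} {k : ℕ} {ns : List Net} {ts : List Tab}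
    {L : List ℕ} {ls : List Level} (C : Cert φ γ k ns ts L ls) {B : List ℕ}
    (hB : chainBase [] ls = B) {WL : List (List ℕ)}
    (h : (ptsOK k B && (incB (keyW k ts B) WL 0 && Nat.beq WL.length (chainCard ls))) = true) :
    Orc γ ⊤ (eqB k ts B) WL := by
  simp only [Bool.and_eq_true, Nat.beq_eq] at h
  obtain ⟨hp, hi, hl⟩ := h
  have ha : ∀ u v, ev (ext γ) u = ev (ext γ) v → ∀ b ∈ B,
      ap k (msk k) ts u b = ap k (msk k) ts v b := fun u v e b hb => by
    rw [msk_eq, C.M.ap u (ptsOK_lt hp hb), C.M.ap v (ptsOK_lt hp hb), e]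
  refine ⟨fun u v => ⟨eqB_sound C.M (K := ⊤) (hB ▸ C.base) hp trivial trivial, fun e => ?_⟩, fun y _ => ?_,
    fun _ => trivial⟩
  · exact allL_iff.2 fun b hb => by rw [ha u v e b hb]; exact Nat.beq_refl _
  · classical
    haveI := C.fin
    haveI := Fintype.ofFinite G
    have hk : ∀ u v, ev (ext γ) u = ev (ext γ) v → keyW k ts B u = keyW k ts B v := fun u v e => by
      have := ha u v e
      clear hp hi hB ha
      induction B with
      | nil => rfl
      | cons b B ih =>
        show Nat.add (ap k (msk k) ts u b) (Nat.shiftLeft (keyW k ts B u) k) =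
          Nat.add (ap k (msk k) ts v b) (Nat.shiftLeft (keyW k ts B v) k)
        rw [this b (by simp), ih fun c hc => this c (by simp [hc])]
    have hn : (WL.map (ev (ext γ))).Nodup := by
      have := (incB_sound hi).1
      rw [List.pairwise_map] at this
      exact List.pairwise_map.2 (this.imp fun {u v} huv e => huv.ne (hk u v e))
    have hu : (WL.map (ev (ext γ))).toFinset = Finset.univ := by
      apply Finset.eq_univ_of_card
      rw [List.toFinset_card_of_nodup hn, List.length_map, hl, ← C.card, Nat.card_eq_fintype_card]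
    have : y ∈ (WL.map (ev (ext γ))).toFinset := hu ▸ Finset.mem_univ y
    simpa using this

theorem Cert.eq_iff {φ : G →* Perm ℕ} {γ : ℕ → G} {k : ℕ} {ns : List Net} {ts : List Tab}
    {L : List ℕ} {ls : List Level} (C : Cert φ γ k ns ts L ls)
    (hp : ptsOK k (chainBase [] ls) = true) {u v : List ℕ} :
    eqB k ts (chainBase [] ls) u v = true ↔ ev (ext γ) u = ev (ext γ) v :=
  ⟨eqB_sound C.M (K := ⊤) C.base hp trivial trivial, fun e => allL_iff.2 fun b hb => by
    rw [msk_eq, C.M.ap u (ptsOK_lt hp hb), C.M.ap v (ptsOK_lt hp hb), e]; exact Nat.beq_refl _⟩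

theorem Orc.map {H : Type*} [Group H] {γ : ℕ → G} {q : List ℕ → List ℕ → Bool}
    {WL : List (List ℕ)} (O : Orc γ ⊤ q WL) {f : G →* H} (hf : Function.Injective f) {δ : ℕ → H}
    (e : ∀ j, f (γ j) = δ j) : Orc δ f.range q WL := by
  have h : ∀ w, ev (ext δ) w = f (ev (ext γ) w) := fun w => by rw [map_ev_ext, funext e]
  refine ⟨fun u v => by rw [O.iff, h, h, hf.eq_iff], ?_, fun w => ⟨_, (h w).symm⟩⟩
  rintro _ ⟨y, rfl⟩
  obtain ⟨w, hw, rfl⟩ := O.all y trivial
  exact ⟨w, hw, h w⟩

/-- A further letter (number 50). -/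
def up (γ : ℕ → G) (z : G) (j : ℕ) : G := if j = 50 then z else γ j

/-- Substitution for the letter 50. -/
noncomputable def sb (w u : List ℕ) : List ℕ :=
  List.rec [] (fun a _ ih => Bool.rec (Bool.rec (a :: ih) (app (invW w) ih) (Nat.beq a 101))
    (app w ih) (Nat.beq a 100)) u

theorem ev_sb (γ : ℕ → G) (w u : List ℕ) :
    ev (ext γ) (sb w u) = ev (ext (up γ (ev (ext γ) w))) u := by
  induction u with
  | nil => rfl
  | cons a u ih =>
    have : sb w (a :: u) = Bool.rec (Bool.rec (a :: sb w u) (app (invW w) (sb w u)) (Nat.beq a 101))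
      (app w (sb w u)) (Nat.beq a 100) := rfl
    rw [this, ev_cons, ← ih]
    cases h : Nat.beq a 100
    · cases h' : Nat.beq a 101
      · have h1 : a ≠ 100 := Nat.ne_of_beq_eq_false h
        have h2 : a ≠ 101 := Nat.ne_of_beq_eq_false h'
        have h3 : a / 2 ≠ 50 := by omega
        show ev _ (a :: _) = _
        rw [ev_cons]; simp [ext, up, h3]
      · rw [Nat.eq_of_beq_eq_true h']
        show ev _ (app _ _) = _
        rw [ev_app, ev_invW]; simp [ext, up]
    · rw [Nat.eq_of_beq_eq_true h]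
      show ev _ (app _ _) = _
      rw [ev_app]; simp [ext, up]

section
variable {γ : ℕ → G} {K : Subgroup G} {q : List ℕ → List ℕ → Bool} {WL : List (List ℕ)}

theorem Orc.eq (O : Orc γ K q WL) (u v : List ℕ) (h : q u v = true) :
    ev (ext γ) u = ev (ext γ) v := (O.iff u v).1 h

theorem Orc.ne (O : Orc γ K q WL) (u v : List ℕ) (h : q u v = false) :
    ev (ext γ) u ≠ ev (ext γ) v := fun e => by rw [(O.iff u v).2 e] at h; cases h

theorem Orc.holds (O : Orc γ K q WL) (R : List (List ℕ)) (h : (allL R fun u => q u []) = true) :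
    Holds (ext γ) R := fun r hr => O.eq r [] (allL_iff.1 h r hr)

/-- The solutions of `Q` are conjugated to listed elements. -/
noncomputable def clsB (q : List ℕ → List ℕ → Bool) (WL Q : List (List ℕ))
    (T : List (List ℕ × List ℕ)) : Bool :=
  allL WL fun w => Bool.rec true (anyL T fun p => q (app p.1 w) (app p.2 p.1))
    (allL Q fun u => q (sb w u) [])

theorem Orc.cls (O : Orc γ K q WL) (Q : List (List ℕ)) (T : List (List ℕ × List ℕ))
    (h : clsB q WL Q T = true) {z : G} (hz : z ∈ K) (hQ : Holds (ext (up γ z)) Q) :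
    ∃ p ∈ T, ev (ext γ) p.1 * z * (ev (ext γ) p.1)⁻¹ = ev (ext γ) p.2 := by
  obtain ⟨w, hw, rfl⟩ := O.all z hz
  have h1 := allL_iff.1 h w hw
  have h2 : (allL Q fun u => q (sb w u) []) = true :=
    allL_iff.2 fun u hu => (O.iff _ _).2 ((ev_sb γ w u).trans (hQ u hu))
  rw [h2] at h1
  obtain ⟨p, hp, e⟩ := anyL_iff.1 h1
  have := O.eq _ _ e
  rw [ev_app, ev_app] at this
  exact ⟨p, hp, by rw [this, mul_inv_cancel_right]⟩

/-- The solutions of `Q` are listed. -/
theorem Orc.sol (O : Orc γ K q WL) (Q S : List (List ℕ))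
    (h : clsB q WL Q (S.map fun s => ([], s)) = true) {z : G} (hz : z ∈ K)
    (hQ : Holds (ext (up γ z)) Q) : ∃ s ∈ S, z = ev (ext γ) s := by
  obtain ⟨p, hp, e⟩ := O.cls Q _ h hz hQ
  obtain ⟨s, hs, rfl⟩ := List.mem_map.1 hp
  exact ⟨s, hs, by simpa using e⟩

/-- The solutions of `Q` solve `Q'`. -/
theorem Orc.imp (O : Orc γ K q WL) (Q Q' : List (List ℕ))
    (h : (allL WL fun w => Bool.rec true (allL Q' fun u => q (sb w u) [])
      (allL Q fun u => q (sb w u) [])) = true) {z : G} (hz : z ∈ K)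
    (hQ : Holds (ext (up γ z)) Q) : Holds (ext (up γ z)) Q' := by
  obtain ⟨w, hw, rfl⟩ := O.all z hz
  have h1 := allL_iff.1 h w hw
  have h2 : (allL Q fun u => q (sb w u) []) = true :=
    allL_iff.2 fun u hu => (O.iff _ _).2 ((ev_sb γ w u).trans (hQ u hu))
  rw [h2] at h1
  exact fun u hu => (ev_sb γ w u).symm.trans (O.eq _ _ (allL_iff.1 h1 u hu))

/-- Pairs of conjugators and one target. -/
def cl (Gs : List (List ℕ)) (s : List ℕ) : List (List ℕ × List ℕ) := Gs.map fun g => (g, s)

theorem mem_cl {Gs : List (List ℕ)} {s : List ℕ} {p : List ℕ × List ℕ} (h : p ∈ cl Gs s) :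
    p.1 ∈ Gs ∧ p.2 = s := by
  obtain ⟨g, hg, rfl⟩ := List.mem_map.1 h
  exact ⟨hg, rfl⟩

/-- Listed words solve the equations. -/
theorem Orc.sat (O : Orc γ K q WL) (Gs Q : List (List ℕ))
    (h : (allL Gs fun g => allL Q fun u => q (sb g u) []) = true) {g : List ℕ} (hg : g ∈ Gs) :
    Holds (ext (up γ (ev (ext γ) g))) Q := fun u hu =>
  (ev_sb γ g u).symm.trans (O.eq _ _ (allL_iff.1 (allL_iff.1 h g hg) u hu))

end

end Cfsg.Agent.CGT
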